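import Cfsg.Agent.H799.PiBS.Inv3
import Cfsg.Agent.MonsterX.ThOneClass
import Cfsg.Agent.KFacts.Th.Main

/-!
# `Inv3` for the Thompson group (helper443, S3876)
-/

set_option autoImplicit false

namespace Cfsg.Agent.H443.PiS

open Subgroup Cfsg Cfsg.Agent.H799.PiBS Cfsg.Agent.Th.Base Cfsg.Agent.Th.IndexUpper

/-- if `a = b` in `RelK`, then `a = 1` -/
theorem relK_ne {G : Type*} [Group G] {a b c d e s t : G} (h : RelK a b c d e s t) (ha : a ≠ 1) : a * b ≠ 1 := by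
  intro hab
  have hb : b = a := by
    have h1 : a * a = 1 := by rw [← pow_two, h.a2]
    exact mul_left_cancel (hab.trans h1.symm)
  subst hb
  have haa : b * b = 1 := by rw [← pow_two, h.b2]
  have hcc : c * c = 1 := by rw [← pow_two, h.c2]
  have hdd : d * d = 1 := by rw [← pow_two, h.d2]
  have hac : b = (c * d) ^ 4 := mul_inv_eq_one.1 h.acd
  -- `c` commutes with `(c d)^4`
  have hci : c⁻¹ = c := inv_eq_of_mul_eq_one_right hcc
  have hdi : d⁻¹ = d := inv_eq_of_mul_eq_one_right hdd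
  have hbi : b⁻¹ = b := inv_eq_of_mul_eq_one_right haa
  have h1 : c * b * c⁻¹ = b := by
    have h2 : c * b * c⁻¹ = (c * (c * d) * c⁻¹) ^ 4 := by rw [conj_pow, ← hac]
    have h3 : c * (c * d) * c⁻¹ = (c * d)⁻¹ := by
      rw [mul_inv_rev, hci, hdi, ← mul_assoc, hcc, one_mul]
    rw [h2, h3, inv_pow, ← hac, hbi]
  have hcb : Commute c b := by
    have h2 := mul_inv_eq_iff_eq_mul.1 h1
    exact h2
  have h4 : b * c = 1 := by
    have h5 := h.bc3
    have h6 : (b * c) ^ 2 = 1 := by rw [hcb.symm.mul_pow, h.b2, h.c2, one_mul]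
    calc b * c = (b * c) ^ 3 * ((b * c) ^ 2)⁻¹ := by group
      _ = 1 := by rw [h5, h6, inv_one, one_mul]
  have hbc : b = c := by
    rw [← hci]
    exact eq_inv_of_mul_eq_one_left h4
  -- `d` commutes with `b = c`
  have h7 : (c * d) ^ 2 = 1 := by
    have := h.bd2
    rwa [hbc] at this
  apply ha
  rw [hac, show (4 : ℕ) = 2 * 2 from rfl, pow_mul, h7, one_pow]

/-- **Th** -/
theorem inv3_th {K : Type*} [Group K] [Finite K] (h : Cfsg.Spor.IsoTh K) : Inv3 K := by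
  obtain ⟨e⟩ := h
  have hfin : Finite Cfsg.Spor.Th := Finite.of_equiv K e.toEquiv
  have hs : IsSimpleGroup Cfsg.Spor.Th := Cfsg.Agent.Th.Main1700.isTh.1
  have h1 : gTh 1 ≠ 1 := Cfsg.Agent.Th.Main475.a_ne_one
  have hc : center Cfsg.Spor.Th = ⊥ := by
    refine center_bot fun hp => ?_
    obtain ⟨g, hg⟩ : ∃ g : Cfsg.Spor.Th, g ∈ ({gTh 1} : Set Cfsg.Spor.Th) := ⟨gTh 1, rfl⟩
    have h2 : Nat.card (centralizer ({gTh 1} : Set Cfsg.Spor.Th)) ∣ Nat.card Cfsg.Spor.Th :=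
      card_subgroup_dvd_card _
    rw [Cfsg.Agent.MonsterX.ThOneClass.card_a] at h2
    have h3 : 2 ∣ Nat.card Cfsg.Spor.Th := (by norm_num : 2 ∣ 92897280).trans h2
    have h4 : 3 ∣ Nat.card Cfsg.Spor.Th := (by norm_num : 3 ∣ 92897280).trans h2
    have h5 := (Nat.prime_dvd_prime_iff_eq Nat.prime_two hp).1 h3
    have h6 := (Nat.prime_dvd_prime_iff_eq Nat.prime_three hp).1 h4
    omega
  exact Inv3.congr e (Inv3.of_oneClass hc Cfsg.Agent.KFacts.Th.Main.inner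
    Cfsg.Agent.MonsterX.ThOneClass.oneClass (s := gTh 1) (t := gTh 2) (by rw [← pow_two, gTh_relK.a2]) h1
    (by rw [← pow_two, gTh_relK.b2]) gTh_relK.ab3 (relK_ne gTh_relK h1))

end Cfsg.Agent.H443.PiS
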